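import Cfsg.Agent.Lib.Helper71.Gag.Defs

set_option autoImplicit false

namespace Cfsg.Agent.Lib.Helper71.Gag

theorem orderOf_eq_of_isConj {G : Type*} [Group G] {a b : G} (h : IsConj a b) :
    orderOf a = orderOf b := by
  obtain ⟨c, hc⟩ := isConj_iff.1 h
  rw [← hc]
  exact (orderOf_injective (MulAut.conj c).toMonoidHom (MulAut.conj c).injective a).symm

theorem ab {G : Type*} [Group G] [Finite G] {p : ℕ} [Fact p.Prime] {N : Subgroup G} [N.Normal]
    (D : Dat p N) : ∀ x ∈ N, ∀ y ∈ N, x * y = y * x := by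
  have hnt : Nontrivial N := (Subgroup.nontrivial_iff_ne_bot N).2 D.ne
  have hc : Nontrivial (Subgroup.center N) := D.pg.center_nontrivial
  obtain ⟨z, hz⟩ := exists_ne (1 : Subgroup.center N)
  have hz1 : ((z : N) : G) ≠ 1 := by
    intro h
    apply hz
    ext
    exact h
  have hzc : ∀ n ∈ N, n * ((z : N) : G) = ((z : N) : G) * n := by
    intro n hn
    have := Subgroup.mem_center_iff.1 z.2 ⟨n, hn⟩
    exact congrArg Subtype.val this
  intro x hx y hy
  by_cases hy1 : y = 1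
  · rw [hy1, mul_one, one_mul]
  obtain ⟨g, hg⟩ := isConj_iff.1 (D.c1 _ (z : N).2 y hy hz1 hy1)
  have h1 : g⁻¹ * x * g ∈ N := by
    have := (inferInstance : N.Normal).conj_mem x hx g⁻¹
    rwa [inv_inv] at this
  have h2 := hzc _ h1
  rw [← hg]
  calc x * (g * ((z : N) : G) * g⁻¹) = g * ((g⁻¹ * x * g) * ((z : N) : G)) * g⁻¹ := by group
    _ = g * (((z : N) : G) * (g⁻¹ * x * g)) * g⁻¹ := by rw [h2]
    _ = g * ((z : N) : G) * g⁻¹ * x := by group

theorem fpf {G : Type*} [Group G] [Finite G] {p : ℕ} [Fact p.Prime] {N : Subgroup G}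
    (D : Dat p N) : ∀ x ∈ N, x ≠ 1 → ∀ w : G, w * x = x * w → (orderOf w).Coprime p → w = 1 := by
  intro x hx hx1 w hw hco
  have hpow : ∀ n ∈ N, ∃ k : ℕ, orderOf n = p ^ k := by
    intro n hn
    obtain ⟨k, hk⟩ := (IsPGroup.iff_orderOf.1 D.pg) ⟨n, hn⟩
    exact ⟨k, by rw [← hk, Subgroup.orderOf_mk]⟩
  by_contra hw1
  have hwN : w ∉ N := by
    intro hwN
    obtain ⟨k, hk⟩ := hpow w hwN
    rw [hk] at hco
    apply hw1
    rw [← orderOf_eq_one_iff, hk]
    rcases Nat.eq_zero_or_pos k with rfl | hk0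
    · rfl
    · exfalso
      have : p ∣ Nat.gcd (p ^ k) p := Nat.dvd_gcd (dvd_pow_self p hk0.ne') dvd_rfl
      rw [Nat.Coprime] at hco
      rw [hco] at this
      exact (Fact.out : p.Prime).one_lt.ne' (Nat.dvd_one.1 this)
  obtain ⟨k, hk⟩ := hpow x hx
  have h1 := orderOf_eq_of_isConj (D.c2 w hwN x hx)
  have h2 : orderOf (w * x) = orderOf w * orderOf x :=
    Commute.orderOf_mul_eq_mul_orderOf_of_coprime hw (by rw [hk]; exact Nat.Coprime.pow_right k hco)
  rw [h2] at h1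
  have h3 : orderOf x = 1 := by
    have hpos : 0 < orderOf w := orderOf_pos w
    have : orderOf w * 1 = orderOf w * orderOf x := by rw [mul_one]; exact h1
    exact (Nat.eq_of_mul_eq_mul_left hpos this).symm
  exact hx1 (orderOf_eq_one_iff.1 h3)

theorem cn {G : Type*} [Group G] [Finite G] {p : ℕ} [Fact p.Prime] {N : Subgroup G} [N.Normal]
    (D : Dat p N) (hc : N = Cfsg.pCore p G) : ∀ c : G, (∀ n ∈ N, c * n = n * c) → c ∈ N := by
  have hp : p.Prime := Fact.out
  obtain ⟨x, hx1⟩ := (Subgroup.ne_bot_iff_exists_ne_one).1 D.ne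
  have hx1' : (x : G) ≠ 1 := fun h => hx1 (Subtype.ext h)
  have hP : IsPGroup p (Subgroup.centralizer (N : Set G)) := by
    intro y
    obtain ⟨k, m, hm, hkm⟩ := Nat.exists_eq_pow_mul_and_not_dvd (orderOf_pos (y : G)).ne' p
      hp.one_lt.ne'
    refine ⟨k, ?_⟩
    have ho : orderOf ((y : G) ^ p ^ k) = m := by
      rw [orderOf_pow_of_dvd (pow_ne_zero _ hp.pos.ne') (by rw [hkm]; exact Dvd.intro _ rfl), hkm,
        Nat.mul_div_cancel_left _ (pow_pos hp.pos _)]
    have hy : (y : G) * x = x * y := ((Subgroup.mem_centralizer_iff.1 y.2) x x.2).symm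
    have h1 : (y : G) ^ p ^ k = 1 := by
      apply fpf D x x.2 hx1' _ _ _
      · exact ((Commute.pow_left (show Commute (y : G) x from hy) _)).eq
      · rw [ho]
        exact ((Nat.Prime.coprime_iff_not_dvd hp).2 hm).symm
    ext
    simpa using h1
  have hle : Subgroup.centralizer (N : Set G) ≤ Cfsg.pCore p G :=
    le_sSup ⟨inferInstance, hP⟩
  intro c hcn
  rw [hc]
  apply hle
  rw [Subgroup.mem_centralizer_iff]
  intro n hn
  exact (hcn n hn).symm

end Cfsg.Agent.Lib.Helper71.Gag
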