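import Mathlib
import Cfsg.Prelude.Def_Blocks
import Cfsg.Prelude.Def_Solvable

set_option autoImplicit false

namespace Cfsg.Agent.Lib.Helper71.Gag

/-- Group-theoretic shadow of a character that is nonzero on exactly two classes:
`N` is a nontrivial `p`-subgroup whose nonidentity elements are all conjugate and every
`g` outside `N` is conjugate to all elements of the coset `g N`. -/
structure Dat {G : Type*} [Group G] (p : ℕ) (N : Subgroup G) : Prop where
  pg : IsPGroup p N
  ne : N ≠ ⊥
  c1 : ∀ x ∈ N, ∀ y ∈ N, x ≠ 1 → y ≠ 1 → IsConj x y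
  c2 : ∀ g, g ∉ N → ∀ n ∈ N, IsConj g (g * n)

end Cfsg.Agent.Lib.Helper71.Gag
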